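import Cfsg.Agent.KFacts.RgdLieCharP
import Cfsg.Agent.H742.PanC
import Cfsg.Agent.H804.PanPSL
import Cfsg.Agent.H793.PanG2
import Cfsg.Agent.H35.ExcIdxTw
import Cfsg.Agent.Mrg.Omega.ML.Ex.Typ.List
import Cfsg.Agent.ClassicalGeometry.HermLines
import Cfsg.Agent.Nodes.CardWitt

/-!
# Root group data of the groups of Lie type with lower bounds for the orders of the simple root groups

`HasFiltQ p M q G` : `G` has a filtered root group datum of characteristic `p` and type `M`, generating `G`, with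
`q i ≤ |X_i|` for the simple root groups. Instances:

* `fq_PSL`, `fq_PSp`, `fq_PSU_even`, `fq_PSU_odd`, `fq_PO_odd`, `fq_PO_minus`, `fq_PO_plus`;
* `fq_group` (all Chevalley groups `D.group K`), `fq_twD4`, `fq_twE6`.

`HasFiltQ.pack` : the datum of a simple group, with `GG = ⊤`, Borel–Tits (`BT`), connected diagram, no central elements.
-/

set_option autoImplicit false
set_option linter.unusedSectionVars false

namespace Cfsg.Agent.H218.OWN

open Cfsg CoxeterSystem Cfsg.Agent.ChevalleyStructure.CoxeterGeom Cfsg.Agent.Tits.Roots Cfsg.Agent.Tits.Core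
  Cfsg.Agent.Tits.RootComb Cfsg.Agent.Nodes.Comb Cfsg.Agent.Nodes.Reps Cfsg.Agent.Nodes.BNOf
  Cfsg.Agent.Nodes.Bruhat Cfsg.Agent.Nodes.LeviDec Cfsg.Agent.Nodes.NormX
open Cfsg.Agent.Nodes Cfsg.Agent.Nodes.RGDLib Cfsg.Agent.KFacts.RgdBorelTits Cfsg.Agent.KFacts.RgdFilt
  Cfsg.Agent.KFacts.RgdCharP Cfsg.Agent.KFacts.RgdPar Cfsg.Agent.KFacts.RgdVJ Cfsg.Agent.KFacts.RgdCent

/-- `G` has a filtered root group datum of characteristic `p` and type `M` with `q i ≤ |X_i|` -/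
def HasFiltQ (p : ℕ) {l : ℕ} (M : CoxeterMatrix (Fin l)) (q : Fin l → ℕ) (G : Type*) [Group G] : Prop :=
  ∃ (A : Fin l → Fin l → ℤ) (h : IsCartan M A) (T : Subgroup G) (n : Fin l → G)
    (X : (Fin l → ℤ) → Subgroup G) (R : RGD M.toCoxeterSystem h p T n X) (F : (Fin l → ℤ) → ℝ → Subgroup G),
    Finite M.Group ∧ Nodes.RGDLib.G1 M.toCoxeterSystem h X = ⊤ ∧ Filt R F ∧ ∀ i, q i ≤ Nat.card ↥(X (sr i))

namespace HasFiltQ

variable {p l : ℕ} {M : CoxeterMatrix (Fin l)} {q : Fin l → ℕ} {G H : Type*} [Group G] [Group H]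

theorem hasFilt (hG : HasFiltQ p M q G) : HasFilt p G := by
  obtain ⟨A, h, T, n, X, R, F, h1, h2, h3, -⟩ := hG
  exact ⟨l, M, A, h, T, n, X, R, F, h1, h2, h3⟩

theorem mono (hG : HasFiltQ p M q G) {q' : Fin l → ℕ} (hq : ∀ i, q' i ≤ q i) : HasFiltQ p M q' G := by
  obtain ⟨A, h, T, n, X, R, F, h1, h2, h3, h4⟩ := hG
  exact ⟨A, h, T, n, X, R, F, h1, h2, h3, fun i => (hq i).trans (h4 i)⟩

theorem of_equiv [Finite G] (e : G ≃* H) (hG : HasFiltQ p M q G) : HasFiltQ p M q H := by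
  obtain ⟨A, h, T, n, X, R, F, hW, hX, hF, hc⟩ := hG
  refine ⟨A, h, T.map e.toMonoidHom, fun i => e (n i), fun x => (X x).map e.toMonoidHom,
    Nodes.RGDLib.rgd_map_of_injective R e.toMonoidHom e.injective, fun x s => (F x s).map e.toMonoidHom, hW, ?_,
    filt_map hF e.toMonoidHom _, fun i => (hc i).trans (Nat.card_congr
      ((X (sr i)).equivMapOfInjective e.toMonoidHom e.injective).toEquiv).le⟩
  have h1 : (Nodes.RGDLib.G1 M.toCoxeterSystem h X).map e.toMonoidHom =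
      Nodes.RGDLib.G1 M.toCoxeterSystem h (fun x => (X x).map e.toMonoidHom) := by
    unfold Nodes.RGDLib.G1 RGD.Sup
    rw [Subgroup.map_iSup]
  rw [← h1, hX, Subgroup.map_top_of_surjective _ e.surjective]

/-- **the package** -/
theorem pack [Finite G] [Fact p.Prime] (hs : IsSimpleGroup G) (hc : Subgroup.center G = ⊥) (hG : HasFiltQ p M q G) :
    ∃ (A : Fin l → Fin l → ℤ) (h : IsCartan M A) (T : Subgroup G) (n : Fin l → G)
      (X : (Fin l → ℤ) → Subgroup G), Finite M.Group ∧ RGD M.toCoxeterSystem h p T n X ∧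
      GG M.toCoxeterSystem h T X = ⊤ ∧ RGD.Sup X {x | IsRoot M.toCoxeterSystem h x} = ⊤ ∧ Conn M ∧
      BT M.toCoxeterSystem h p T X ∧ NoCent M.toCoxeterSystem h T X ∧ ∀ i, q i ≤ Nat.card ↥(X (sr i)) := by
  obtain ⟨A, h, T, n, X, R, F, hW, hX, hF, hq⟩ := hG
  refine ⟨A, h, T, n, X, hW, R, GG_eq_top hX, hX, KFacts.RgdLieCharP.conn_of_simple R hX hc, ?_,
    KFacts.RgdLieCharP.noCent_of_center hX hc, hq⟩
  intro K hK hK1
  exact borel_tits_of_filt hF hX hK hK1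

end HasFiltQ

end Cfsg.Agent.H218.OWN

/-! ### classical groups -/

namespace Cfsg.Agent.H218.OWN

open Cfsg Cfsg.Agent.ChevalleyStructure.CoxeterGeom Cfsg.Agent.Tits.Roots
open Cfsg.Agent.Nodes.Comb Cfsg.Agent.Nodes.Reps Cfsg.Agent.Nodes.WittRoot Cfsg.Agent.Nodes.BNOf
open Cfsg.Agent.Nodes Cfsg.Agent.Nodes.RGDLib Cfsg.Agent.Nodes.WittAll
open Cfsg.Agent.TitsThree Cfsg.Agent.TitsThree.Siegel Cfsg.Agent.TitsThree.WittFrame
  Cfsg.Agent.TitsThree.WittWeyl Cfsg.Agent.TitsThree.FrameCN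
open Cfsg.Agent.KFacts.RgdBorelTits Cfsg.Agent.KFacts.RgdFilt Cfsg.Agent.KFacts.RgdFiltWitt

theorem hasFiltQ_of_sl {p : ℕ} {G : Type*} [Group G] {l : ℕ} {M : CoxeterMatrix (Fin l)} {A : Fin l → Fin l → ℤ}
    {h : IsCartan M A} {T : Subgroup G} {n : Fin l → G} {X : (Fin l → ℤ) → Subgroup G} {q : Fin l → ℕ}
    (hW : Finite M.Group) (R : RGD M.toCoxeterSystem h p T n X) (hX : G1 M.toCoxeterSystem h X = ⊤)
    (h4 : ∀ i j, M i j ≠ 4) (h6 : ∀ i j, M i j ≠ 6) (hq : ∀ i, q i ≤ Nat.card ↥(X (sr i))) : HasFiltQ p M q G :=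
  ⟨A, h, T, n, X, R, F2 X X, hW, hX, (intComm_of_sl R (sl_of_ne h4 h6)).filt, hq⟩

section TypeC

open Cfsg.Agent.Nodes.TypeC

variable {F : Type*} [Field F] {V : Type*} [AddCommGroup V] [Module F V] {H : HForm F V} {n : ℕ}
  {Fr : Frame H (Fin n)} {K : Type*} [Group K] (M : Model Fr K) {p : ℕ}

theorem fq_C (hA : AmbT Fr p M.I) [Finite V] [Fact p.Prime] [CharP F p] {p0 : Fr.Adm} (hp0 : p0.c ≠ 0)
    (hn : 0 < n) {q : Fin n → ℕ} (h1 : ∀ i : Fin n, (i : ℕ) + 1 < n → q i ≤ Nat.card F)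
    (h2 : ∀ i : Fin n, ¬ (i : ℕ) + 1 < n → q i ≤ Nat.card Fr.Adm) : HasFiltQ p (CoxeterMatrix.B n) q K := by
  have : Finite (V ≃ₗ[F] V) := Finite.of_injective (fun g : V ≃ₗ[F] V => (g : V → V)) DFunLike.coe_injective
  have hF : Filt (rgdC hA hp0 (CoxeterMatrix.B n).toCoxeterSystem) (F2 (zr Fr) (rg Fr)) :=
    (two hA (T := Nodes.WittRGD.Tor Fr M.I) (fun i => ⟨nn_mem hA p0 i, Nodes.WittRGD.mono_nn hp0 i⟩)
      (fun _ ht => ⟨ht.1, ht.2⟩) _).filt
  have hF1 := filt_restrict hF M.I (fun x _ => hA.rg_le x)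
    (n' := fun i => (⟨Nodes.WittRGD.nn Fr p0 i, nn_mem hA p0 i⟩ : M.I)) (fun _ => rfl)
    (rgd_restrict (rgdC hA hp0 _) M.I (fun x _ => hA.rg_le x) (fun i => nn_mem hA p0 i))
  have hF2 := filt_map hF1 M.φ (rgdC_model M hA hp0 (CoxeterMatrix.B n).toCoxeterSystem)
  refine ⟨A n, isCartan n, _, _, WittModel.X M, rgdC_model M hA hp0 _, _,
    finite_W (CoxeterMatrix.B n).toCoxeterSystem, Nodes.WittModel.G1_eq_top _ hn _, hF2, fun i => ?_⟩
  by_cases hi : (i : ℕ) + 1 < n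
  · exact (h1 i hi).trans (H742.card_X_of_lt M hi).ge
  · exact (h2 i hi).trans (H742.card_X_last M hi).ge

end TypeC

/-- **`PSL_{n+1}(F)`** -/
theorem fq_PSL {F : Type*} [Field F] [Finite F] (n : ℕ) {p : ℕ} [Fact p.Prime] [CharP F p] :
    HasFiltQ p (Cfsg.Agent.LieRecognition.BNCox.cA n) (fun _ => Nat.card F)
      (Matrix.ProjectiveSpecialLinearGroup (Fin (n + 1)) F) := by
  have hc : ∀ i j : Fin n, Cfsg.Agent.LieRecognition.BNCox.cA n i j ≤ 3 := by
    intro i j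
    rw [Cfsg.Agent.LieRecognition.BNCox.cA_apply]
    show (if (i : ℕ) = j then 1 else if (i : ℕ) + 1 = j ∨ (j : ℕ) + 1 = i then 3 else 2) ≤ 3
    split_ifs <;> norm_num
  have hW : Finite (Cfsg.Agent.LieRecognition.BNCox.cA n).Group :=
    Nodes.RootsA.finite_W (Cfsg.Agent.LieRecognition.BNCox.cA n).toCoxeterSystem (Nodes.RootsA.isCartan n)
  refine hasFiltQ_of_sl (h := Nodes.RootsA.isCartan n) hW (Nodes.RGDTypeA.rgd_psl _ _)
    (Nodes.RGDTypeA.G1_psl_eq_top _ _)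
    (fun i j h => by have := hc i j; omega) (fun i j h => by have := hc i j; omega) fun i => le_of_eq ?_
  symm
  rw [Nodes.RGDTypeA.X_sr]
  exact H804.PanPSL.card_map_XX (Fin.castSucc_lt_succ).ne

/-! ### Unitary and symplectic groups -/

section US

open Cfsg.Agent.Nodes.WittU Cfsg.Agent.Nodes.WittInst Cfsg.Agent.TitsThree.WBridge
open Cfsg.Agent.LieClassical.HermBasic Cfsg.Agent.TitsThree.KSideU

/-- **`PSp_{2m}(F)`** -/
theorem fq_PSp {F : Type*} [Field F] [Finite F] {m : ℕ} (hm : 1 ≤ m) {p : ℕ}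
    [Fact p.Prime] [CharP F p] : HasFiltQ p (CoxeterMatrix.B m) (fun _ => Nat.card F) (PSp m F) := by
  have := Omega.ML.Ex.Typ.finite_adm (SpIdent.frame m F)
  refine fq_C (KInstSp.model m F) (AmbT.of_amb amb_Sp p) (p0 := SpIdent.adm 1) one_ne_zero hm (fun _ _ => le_rfl)
    fun _ _ => ?_
  exact Nat.card_le_card_of_injective (fun c : F => (SpIdent.adm c : (SpIdent.frame m F).Adm)) fun a b e =>
    congrArg Frame.Adm.c e

variable {F : Type*} [Field F] [Fintype F] {q m : ℕ}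

/-- **`PSU_{2m}(q)`** -/
theorem fq_PSU_even (hF : Fintype.card F = q ^ 2) (hm : 2 ≤ m) {p : ℕ} [Fact p.Prime] [CharP F p] :
    HasFiltQ p (CoxeterMatrix.B m) (fun i => if (i : ℕ) + 1 < m then q ^ 2 else q) (PSU (2 * m) F q) := by
  obtain ⟨W, hW⟩ := exists_wframe_even hF (N := 2 * m) rfl
  obtain ⟨p0, hp0, -⟩ := exists_adm hF W
  have := Omega.ML.Ex.Typ.finite_adm (toFrame W)
  refine fq_C (KInstU.model hF (by omega) W) (AmbT.of_amb (amb_U hF W) p) hp0 (by omega)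
    (fun i hi => ?_) fun i hi => ?_
  · rw [if_pos hi, ← hF, Nat.card_eq_fintype_card]
  · rw [if_neg hi]
    have h0 : (0 : F) ^ q = 0 := zero_pow_q hF
    refine (ClassicalGeometry.HermLines.card_trace_eq hF h0).ge.trans ?_
    refine Nat.card_le_card_of_injective (fun c : {s : F // s + s ^ q = 0} =>
      (⟨0, c.1, W.V0.zero_mem, ?_⟩ : (toFrame W).Adm)) fun a b e => Subtype.ext (congrArg Frame.Adm.c e)
    rw [ok_iff, herm_zero_left, neg_zero]
    exact c.2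

/-- **`PSU_{2m+1}(q)`** -/
theorem fq_PSU_odd (hF : Fintype.card F = q ^ 2) (hm : 1 ≤ m) {p : ℕ} [Fact p.Prime] [CharP F p] :
    HasFiltQ p (CoxeterMatrix.B m) (fun i => if (i : ℕ) + 1 < m then q ^ 2 else q ^ 3) (PSU (2 * m + 1) F q) := by
  obtain ⟨W, d, hd, hW⟩ := exists_wframe_odd hF (N := 2 * m + 1) rfl
  obtain ⟨p0, hp0, -⟩ := exists_adm hF W
  have := Omega.ML.Ex.Typ.finite_adm (toFrame W)
  have hd0 : d ≠ 0 := by
    rintro rfl
    rw [herm_zero_left] at hd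
    exact zero_ne_one hd
  refine fq_C (KInstU.model hF (by omega) W) (AmbT.of_amb (amb_U hF W) p) hp0 (by omega)
    (fun i hi => ?_) fun i hi => ?_
  · rw [if_pos hi, ← hF, Nat.card_eq_fintype_card]
  · rw [if_neg hi]
    have h1 : Nat.card (Σ a : F, {s : F // s + s ^ q = -hermForm (2 * m + 1) F q (a • d) (a • d)}) = q ^ 3 := by
      rw [Nat.card_sigma, Finset.sum_congr rfl (g := fun _ => q), Finset.sum_const, Finset.card_univ, hF,
        smul_eq_mul, ← pow_succ]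
      intro a _
      exact ClassicalGeometry.HermLines.card_trace_eq hF (by rw [neg_pow_q hF, herm_self_pow hF])
    refine h1.ge.trans ?_
    refine Nat.card_le_card_of_injective
      (fun x : Σ a : F, {s : F // s + s ^ q = -hermForm (2 * m + 1) F q (a • d) (a • d)} =>
        (⟨x.1 • d, x.2.1, ?_, x.2.2⟩ : (toFrame W).Adm)) ?_
    · rw [hW]
      exact Submodule.smul_mem _ _ (Submodule.mem_span_singleton_self d)
    · rintro ⟨a, s, hs⟩ ⟨b, t, ht⟩ e
      have e1 : a • d = b • d := congrArg Frame.Adm.w e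
      have e2 : s = t := congrArg Frame.Adm.c e
      obtain rfl : a = b := smul_left_injective F hd0 e1
      subst e2
      rfl

end US

/-! ### Orthogonal groups -/

section Orthogonal

open QuadraticMap
open Cfsg.Agent.LieClassical Cfsg.Agent.LieClassical.OrthCore Cfsg.Agent.LieClassical.OrthTrans
open Cfsg.Agent.LieClassical.OrthSimple Cfsg.Agent.LieClassical.OrthFinite
open Cfsg.Agent.LieClassical.OrthForms
open Cfsg.Agent.TitsThree.WBridge Cfsg.Agent.TitsThree.KSideO Cfsg.Agent.TitsThree.StdData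
open Cfsg.Agent.Nodes.WittInst

variable {F : Type*} [Field F] [Finite F] {m : ℕ}

/-- **`PΩ_{2m+1}(F)`, `F` of odd characteristic** -/
theorem fq_PO_odd (h2 : (2 : F) ≠ 0) (hm : 2 ≤ m) {p : ℕ} [Fact p.Prime] [CharP F p] :
    HasFiltQ p (CoxeterMatrix.B m) (fun _ => Nat.card F) (Cfsg.POmega F (Cfsg.quadFormOdd m F)) := by
  rw [← coe_oddForm]
  have hG : Good (oddForm m F) := by
    apply good_of_finite (nondeg_oddForm m F h2)
    rw [Module.finrank_fintype_fun_eq_card, Fintype.card_sum, Fintype.card_sum, Fintype.card_fin,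
      Fintype.card_unit]
    omega
  have hp : ((embOdd m F).ngt ⟨1, -1 ^ 2, rfl⟩).c ≠ 0 := by
    change (1 : F)⁻¹ * (-1 ^ 2) ≠ 0
    simp
  have := Omega.ML.Ex.Typ.finite_adm (toFrame (wodd m F))
  refine fq_C (model (wodd m F) hG ⟨_, hp⟩) (AmbT.of_amb (amb_O_of_two _ h2) p) hp (by omega)
    (fun _ _ => le_rfl) fun _ _ => ?_
  refine Nat.card_le_card_of_injective (fun w : F => (embOdd m F).ngt ⟨w, -w ^ 2, rfl⟩) fun a b e => ?_
  have e1 : (embOdd m F).j a = (embOdd m F).j b := congrArg Frame.Adm.w e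
  have e2 := congrFun e1 (Sum.inl ())
  simpa [embOdd] using e2

/-- **`PΩ⁻_{2m+2}(F)`** -/
theorem fq_PO_minus (a b : F)
    (hab : ∀ z₁ z₂ : F, z₁ ^ 2 + a * z₁ * z₂ + b * z₂ ^ 2 = 0 → z₁ = 0 ∧ z₂ = 0)
    (hm : 2 ≤ m) {p : ℕ} [Fact p.Prime] [CharP F p] :
    HasFiltQ p (CoxeterMatrix.B m) (fun i => if (i : ℕ) + 1 < m then Nat.card F else Nat.card F ^ 2)
      (Cfsg.POmega F (Cfsg.quadFormMinus m F a b)) := by
  rw [← coe_minusForm]
  have hG : Good (minusForm m F a b) := by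
    apply good_of_finite (nondeg_minusForm m F a b hab)
    rw [Module.finrank_fintype_fun_eq_card, Fintype.card_sum, Fintype.card_sum, Fintype.card_fin,
      Fintype.card_fin]
    omega
  have hp : ((embMinus m F a b hab).ngt ⟨(1, 0), -nf a b (1, 0), rfl⟩).c ≠ 0 := by
    change (1 : F)⁻¹ * (-nf a b (1, 0)) ≠ 0
    simp [nf]
  have hA : AmbT (toFrame (wminus m F a b hab)) p (E (minusForm m F a b)) := by
    by_cases h2 : (2 : F) = 0
    · have hp2 : p = 2 := by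
        have h3 : CharP F 2 := CharTwo.of_one_ne_zero_of_two_eq_zero one_ne_zero h2
        exact CharP.eq F ‹CharP F p› h3
      subst hp2
      exact ambT_O _ fun g hg hg2 hb => fixp_minus a b hab h2 hm hG hg hg2 hb
    · exact AmbT.of_amb (amb_O_of_two _ h2) p
  have := Omega.ML.Ex.Typ.finite_adm (toFrame (wminus m F a b hab))
  refine fq_C (model (wminus m F a b hab) hG ⟨_, hp⟩) hA hp (by omega)
    (fun i hi => by rw [if_pos hi]) fun i hi => ?_
  rw [if_neg hi, _root_.sq, ← Nat.card_prod]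
  refine Nat.card_le_card_of_injective (fun w : F × F => (embMinus m F a b hab).ngt ⟨w, -nf a b w, rfl⟩)
    fun x y e => ?_
  have e1 : (embMinus m F a b hab).j x = (embMinus m F a b hab).j y := congrArg Frame.Adm.w e
  have e2 := congrFun e1 (Sum.inr 0)
  have e3 := congrFun e1 (Sum.inr 1)
  exact Prod.ext (by simpa [embMinus] using e2) (by simpa [embMinus] using e3)

/-- **`PΩ⁺_{2(n+3)}(F)`** -/
theorem fq_PO_plus (n : ℕ) {p : ℕ} [Fact p.Prime] [CharP F p] :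
    HasFiltQ p (Nodes.TypeD.M (n + 1)) (fun _ => Nat.card F) (Cfsg.POmega F (Cfsg.quadFormPlus (n + 3) F)) := by
  rw [← coe_plusForm]
  have hG : Good (plusForm (n + 3) F) := by
    apply good_of_finite (nondeg_plusForm (n + 3) F)
    rw [Module.finrank_fintype_fun_eq_card, Fintype.card_sum, Fintype.card_fin]
    omega
  have hc : ∀ i j : Fin (n + 1 + 2), Nodes.TypeD.M (n + 1) i j ≤ 3 := by
    intro i j
    show (if i = j then 1 else if Nodes.TypeD.Adj i j ∨ Nodes.TypeD.Adj j i then 3 else 2) ≤ 3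
    split_ifs <;> norm_num
  refine hasFiltQ_of_sl (Nodes.TypeD.finite_W (Nodes.TypeD.M (n + 1)).toCoxeterSystem)
    (rgdD_model (wplus (n + 3) F) hG (amb_plus _) (adm_plus _) _)
    (G1D_eq_top (wplus (n + 3) F) (toPOmega hG) (toPOmega_surjective hG) (adm_plus _) _)
    (fun i j h => by have := hc i j; omega) (fun i j h => by have := hc i j; omega) fun i => ?_
  let V := (Fin (n + 3) ⊕ Fin (n + 3)) → F
  have : Finite (V ≃ₗ[F] V) := Finite.of_injective (fun g : V ≃ₗ[F] V => (g : V → V)) DFunLike.coe_injective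
  let cs := (Nodes.TypeD.M (n + 1)).toCoxeterSystem
  have : Finite (Nodes.TypeD.M (n + 1)).Group := Nodes.TypeD.finite_W cs
  have Rd := rgd_restrict (rgdD (amb_plus (n + 3)) (adm_plus (n + 3)) cs) (E (plusForm (n + 3) F))
    (fun x _ => rgD_le (wplus (n + 3) F) (amb_plus _) x) (fun i => WittRGDD.nn_mem (amb_plus _) i) (p := p)
  refine le_of_eq (Eq.symm ?_)
  refine (Nodes.CardSup.card_map_X Rd (toPOmega hG) (ker_toPOmega hG) (isRoot_sr cs _ i)).trans ?_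
  refine (Nat.card_congr (Subgroup.subgroupOfEquivOfLe (rgD_le (wplus (n + 3) F) (amb_plus _) (sr i))).toEquiv).trans ?_
  rw [WittRGDD.rg_sr]
  exact Nodes.CardWitt.card_XG _ (Nodes.TypeD.ok_nx i)

end Orthogonal

end Cfsg.Agent.H218.OWN

/-! ### exceptional groups -/

namespace Cfsg.Agent.H218.OWN

open CoxeterSystem Cfsg.Agent.ChevalleyStructure.CoxeterGeom Cfsg.Agent.Tits.Roots Cfsg.Agent.Tits.Core
  Cfsg.Agent.Tits.RootComb Cfsg.Agent.Nodes.Comb Cfsg.Agent.Nodes.Reps Cfsg.Agent.Nodes.BNOf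
open Cfsg.Lie Cfsg.Agent.ChevalleyStructure Cfsg.Agent.ChevalleyStructure.Elts
  Cfsg.Agent.ChevalleyStructure.RootVec Cfsg.Agent.ChevalleyStructure.RootVecTab
  Cfsg.Agent.ChevalleyStructure.NPerm Cfsg.Agent.ChevalleyStructure.CoxeterGeomTypes
open Cfsg.Agent.Nodes Cfsg.Agent.Nodes.RGDChev Cfsg.Agent.KFacts.RgdBorelTits Cfsg.Agent.KFacts.RgdFilt
open Cfsg.Agent.KFacts.RgdFiltChev

universe u

/-- **the Chevalley groups** -/
theorem fq_group {D : ChevalleyDatum} {l : ℕ} {M : CoxeterMatrix (Fin l)} (hp : IsType D l M) (K : Type u)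
    [Field K] [Finite K] (p : ℕ) [CharP K p] : HasFiltQ p M (fun _ => Nat.card K) ↥(D.group K) := by
  have : Fact p.Prime := ⟨CharP.char_is_prime K p⟩
  exact ⟨cartanOf D l, hp.isCartan, _, _, _, rgd (K := K) hp M.toCoxeterSystem p, _,
    finite_W hp M.toCoxeterSystem, G1_eq_top hp _, filt hp M.toCoxeterSystem p,
    fun i => (Cfsg.Agent.H35.ExcIdx.card_XX hp K M.toCoxeterSystem (isRoot_sr _ hp.isCartan i)).ge⟩

end Cfsg.Agent.H218.OWN

namespace Cfsg.Agent.H218.OWN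

open CoxeterSystem Cfsg.Agent.ChevalleyStructure.CoxeterGeom Cfsg.Agent.Tits.Roots Cfsg.Agent.Tits.Core
  Cfsg.Agent.Nodes.BNOf Cfsg.Agent.Nodes.RGDTwGen Cfsg.Agent.Nodes.RGDChev Cfsg.Agent.Nodes.RGDFold
open Cfsg.Lie Cfsg.Agent.ChevalleyStructure Cfsg.Agent.ChevalleyStructure.Elts
  Cfsg.Agent.ChevalleyStructure.RootVec Cfsg.Agent.ChevalleyStructure.RootVecTab
open Cfsg.Agent.Nodes Cfsg.Agent.KFacts.RgdBorelTits Cfsg.Agent.KFacts.RgdFilt Cfsg.Agent.KFacts.RgdFiltTwAll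

universe u

/-- **`³D₄(q)`** -/
theorem fq_twD4 {K : Type} [Field K] [Fintype K] {q : ℕ} (hq : IsPrimePow q) (hK : Fintype.card K = q ^ 3)
    (p : ℕ) [CharP K p] : HasFiltQ p CoxeterMatrix.G₂ (fun i => if i = 0 then q else q ^ 3) ↥(twistedD4 K q) := by
  obtain ⟨φ, hφ⟩ := D4Fixed.exists_frob hq hK
  have : Fact p.Prime := ⟨CharP.char_is_prime K p⟩
  have hle := D4Fixed.twisted_le_fix hK hφ
  refine ⟨_, RGDTwD4.isCartan, _, _, _, Cfsg.Agent.Nodes.RGDTwD4.rgd CoxeterMatrix.G₂.toCoxeterSystem hK hφ p, _,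
    RGDFold.finite_W (hp := RGDTwD4.hp) CoxeterMatrix.G₂.toCoxeterSystem RGDTwD4.isCartan RGDTwD4.foldData,
    Cfsg.Agent.Nodes.RGDTwD4.G1_eq_top _ hK hφ,
    filt_fold CoxeterMatrix.G₂.toCoxeterSystem RGDTwD4.isCartan RGDTwD4.foldData
      (RGDTwD4.foldGrp hφ (D4Fixed.twisted_le_fix hK hφ)) p, fun i => ?_⟩
  fin_cases i
  · exact (Cfsg.Agent.ClosedExc.TwD4.card_X0 hφ hle hq.two_le hK).ge
  · exact ((Cfsg.Agent.ClosedExc.TwD4.card_X1 hφ hle).trans hK).ge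

/-- **`²E₆(q)`** -/
theorem fq_twE6 {K : Type u} [Field K] [Fintype K] {q : ℕ} (hq : IsPrimePow q) (hK : Fintype.card K = q ^ 2)
    (p : ℕ) [CharP K p] : HasFiltQ p CoxeterMatrix.F₄ (fun i => if (i : ℕ) < 2 then q else q ^ 2)
      ↥(twistedE6 K q) := by
  obtain ⟨φ, hφ, hqq⟩ := TwE6Basic.exists_frob hq hK
  have : Fact p.Prime := ⟨CharP.char_is_prime K p⟩
  exact ⟨_, RGDTwE6.isCartan, _, _, _, Cfsg.Agent.Nodes.RGDTwE6.rgd CoxeterMatrix.F₄.toCoxeterSystem hφ hqq p, _,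
    RGDFold.finite_W (hp := RGDTwE6.hp) CoxeterMatrix.F₄.toCoxeterSystem RGDTwE6.isCartan RGDTwE6.foldData,
    Cfsg.Agent.Nodes.RGDTwE6.G1_eq_top _ hφ hqq,
    filt_fold CoxeterMatrix.F₄.toCoxeterSystem RGDTwE6.isCartan RGDTwE6.foldData
      (RGDTwE6.foldGrp hφ hqq) p,
    fun i => (Cfsg.Agent.H35.ExcIdx.card_X_tw hφ hqq hq.two_le hK i).ge⟩

end Cfsg.Agent.H218.OWN
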